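import Cfsg.Agent.H366.LThreeFour
import Cfsg.Agent.LieClassical.SLGen

/-!
# Modules of `PSL₃(4)` in characteristic three

`eq_zero_three` : a module in characteristic three on which the elements of order 5 act without fixed vectors is zero
(the Frobenius group `2⁴ : 5`).
-/

set_option autoImplicit false

open Cfsg.Agent Cfsg.Agent.H422 Matrix

namespace Cfsg.Agent.H366.LThreeFour

variable {F : Type*} [Field F]

/-- the unipotent radical of the stabilizer of a plane -/
def tr (a b : F) : Matrix.SpecialLinearGroup (Fin 3) F :=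
  ⟨!![1, 0, a; 0, 1, b; 0, 0, 1], by simp [Matrix.det_fin_three]⟩

theorem tr_mul (a b c d : F) : tr a b * tr c d = tr (a + c) (b + d) := by
  apply Subtype.ext
  rw [Matrix.SpecialLinearGroup.coe_mul]
  ext i j
  fin_cases i <;> fin_cases j <;> simp [tr, Matrix.mul_apply, Fin.sum_univ_three, add_comm]

/-- the homomorphism -/
def trHom (F : Type*) [Field F] : Multiplicative (F × F) →* Matrix.SpecialLinearGroup (Fin 3) F where
  toFun v := tr v.toAdd.1 v.toAdd.2
  map_one' := by
    apply Subtype.ext
    ext i j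
    fin_cases i <;> fin_cases j <;> simp [tr]
  map_mul' v w := by
    rw [tr_mul]
    rfl

section

variable {w u : F} (h : IsW w u)

/-- an element of order five in `SL₂(4)` -/
def D (h : IsW w u) : Matrix.SpecialLinearGroup (Fin 3) F := el !![0, 1, 0; 1, w, 0; 0, 0, 1] (by f4det h)

theorem D_coe (h : IsW w u) : ((D h : Matrix.SpecialLinearGroup (Fin 3) F) : Matrix (Fin 3) (Fin 3) F) =
    !![0, 1, 0; 1, w, 0; 0, 0, 1] := rfl

include h

theorem relD : D h ^ 5 = 1 := by
  have m1 : (!![0, 1, 0; 1, w, 0; 0, 0, 1] : Matrix (Fin 3) (Fin 3) F) * !![0, 1, 0; 1, w, 0; 0, 0, 1] =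
      !![1, w, 0; w, w, 0; 0, 0, 1] := by f4 h
  have m2 : (!![1, w, 0; w, w, 0; 0, 0, 1] : Matrix (Fin 3) (Fin 3) F) * !![1, w, 0; w, w, 0; 0, 0, 1] =
      !![w, 1, 0; 1, 0, 0; 0, 0, 1] := by f4 h
  have m3 : (!![w, 1, 0; 1, 0, 0; 0, 0, 1] : Matrix (Fin 3) (Fin 3) F) * !![0, 1, 0; 1, w, 0; 0, 0, 1] =
      !![1, 0, 0; 0, 1, 0; 0, 0, 1] := by f4 h
  have e : D h ^ 5 = (D h * D h) * (D h * D h) * D h := by simp only [pow_succ, pow_zero, one_mul, mul_assoc]
  rw [e]
  apply Subtype.ext
  simp only [D_coe, Matrix.SpecialLinearGroup.coe_mul, Matrix.SpecialLinearGroup.coe_one]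
  rw [m1, m2, m3, one_fin_three_eq]

theorem orderOf_D : orderOf (q (D h)) = 5 := by
  have : Fact (Nat.Prime 5) := ⟨Nat.prime_five⟩
  refine orderOf_eq_prime ?_ (q_ne_one (i := 0) (j := 1) (by decide) ?_)
  · rw [← map_pow, relD h, map_one]
  · rw [D_coe]
    simp

theorem D_tr (a b : F) : D h * tr a b = tr b (a + w * b) * D h := by
  apply Subtype.ext
  rw [Matrix.SpecialLinearGroup.coe_mul, Matrix.SpecialLinearGroup.coe_mul, D_coe]
  ext i j
  fin_cases i <;> fin_cases j <;> simp [tr, Matrix.mul_apply, Fin.sum_univ_three]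

/-- **modules in characteristic three** -/
theorem eq_zero_three [Fintype F] (hF : Fintype.card F = 4) {V : Type*} [AddCommGroup V]
    [DistribMulAction (Matrix.ProjectiveSpecialLinearGroup (Fin 3) F) V] (h3 : ∀ v : V, v + v + v = 0)
    (f5 : Fpf (Matrix.ProjectiveSpecialLinearGroup (Fin 3) F) V 5) (v : V) : v = 0 := by
  let N : Subgroup (Matrix.ProjectiveSpecialLinearGroup (Fin 3) F) := (q.comp (trHom F)).range
  have hfin : Finite (Matrix.ProjectiveSpecialLinearGroup (Fin 3) F) := inferInstance
  have hcard : Nat.card N ∣ 16 := by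
    have h1 : Nat.card N ∣ Nat.card (Multiplicative (F × F)) := Subgroup.card_range_dvd _
    have h2 : Nat.card (Multiplicative (F × F)) = 16 := by
      rw [Nat.card_congr Multiplicative.toAdd, Nat.card_prod, Nat.card_eq_fintype_card, hF]
    rwa [h2] at h1
  have hmem : ∀ n ∈ N, ∃ a b : F, n = q (tr a b) := by
    rintro n ⟨x, rfl⟩
    exact ⟨x.toAdd.1, x.toAdd.2, rfl⟩
  have hmem' : ∀ a b : F, q (tr a b) ∈ N := fun a b => ⟨Multiplicative.ofAdd (a, b), rfl⟩
  have hconj : ∀ a b : F, q (D h) * q (tr a b) * (q (D h))⁻¹ = q (tr b (a + w * b)) := by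
    intro a b
    rw [← map_mul, D_tr h, map_mul, mul_inv_cancel_right]
  have key := fun (m : Matrix.ProjectiveSpecialLinearGroup (Fin 3) F) (hm : m ∈ N) (v : V) =>
    smul_eq_of_frob (V := V) Nat.prime_five (orderOf_D h) (f5.sum_eq_zero (orderOf_D h)) N
      (by
        intro n hn
        obtain ⟨a, b, rfl⟩ := hmem n hn
        rw [hconj]
        exact hmem' _ _)
      (by
        intro n hn hc
        obtain ⟨a, b, rfl⟩ := hmem n hn
        rw [hconj] at hc
        have hz : tr b (a + w * b) * (tr a b)⁻¹ ∈ Subgroup.center (Matrix.SpecialLinearGroup (Fin 3) F) := by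
          rw [← QuotientGroup.eq_one_iff]
          change q _ = 1
          rw [map_mul, hc, map_inv, mul_inv_cancel]
        have hinv : (tr a b)⁻¹ = tr (-a) (-b) := by
          rw [inv_eq_iff_mul_eq_one, tr_mul, add_neg_cancel, add_neg_cancel]
          apply Subtype.ext
          ext i j
          fin_cases i <;> fin_cases j <;> simp [tr]
        rw [hinv, tr_mul] at hz
        have h1 := mem_center_off hz (i := 0) (j := 2) (by decide)
        have h2 := mem_center_off hz (i := 1) (j := 2) (by decide)
        simp only [tr, Matrix.of_apply, Matrix.cons_val', Matrix.cons_val_zero, Matrix.cons_val_one,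
          Matrix.cons_val_fin_one, Matrix.cons_val] at h1 h2
        have hab : b = a := by linear_combination h1
        subst hab
        have hb : b = 0 := by
          have : w * b = 0 := by linear_combination h2
          exact (mul_eq_zero.1 this).resolve_left h.w0
        subst hb
        have : tr (0 : F) 0 = 1 := by
          apply Subtype.ext
          ext i j
          fin_cases i <;> fin_cases j <;> simp [tr]
        rw [this, map_one])
      (by
        intro v hv
        obtain ⟨k, hk⟩ := hcard
        have h16 : 16 • v = 0 := by rw [hk, mul_comm, mul_smul, hv, smul_zero]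
        calc v = 16 • v - 5 • (v + v + v) := by abel
          _ = 0 := by rw [h16, h3]; simp)
      hm v
  -- the kernel of the action
  let K : Subgroup (Matrix.ProjectiveSpecialLinearGroup (Fin 3) F) :=
    { carrier := {g | ∀ v : V, g • v = v}
      mul_mem' := fun {a b} ha hb v => by rw [mul_smul, hb, ha]
      one_mem' := fun v => one_smul _ v
      inv_mem' := fun {a} ha v => by rw [inv_smul_eq_iff, ha] }
  have hK : K.Normal := ⟨fun n hn g v => by
    rw [mul_smul, mul_smul, hn, smul_inv_smul]⟩
  have hs := LieClassical.SLGen.psl_isSimpleGroup (ι := Fin 3) (F := F) (by simp)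
  rcases hs.eq_bot_or_eq_top_of_normal K hK with h1 | h1
  · exfalso
    have h2 : q (tr (1 : F) 0) ∈ K := fun v => key _ (hmem' 1 0) v
    rw [h1, Subgroup.mem_bot] at h2
    refine q_ne_one (A := tr (1 : F) 0) (i := 0) (j := 2) (by decide) ?_ h2
    simp [tr]
  · apply f5 _ (orderOf_D h)
    have h2 : q (D h) ∈ K := by rw [h1]; trivial
    exact h2 v

end

end Cfsg.Agent.H366.LThreeFour
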